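import Cfsg.Agent.H209.EPX.Defs

/-!
# Extremely primitive groups of Lie rank one: general tools (helper247)

* `two_ne_bot` : `H ∩ H^x ≠ 1` in a simple group;
* `isCoatom_two` : `H ∩ H^x` is maximal in `H`;
* `le_of_comm` : coprime commutator argument;
* `card_le_of_prime` : `X` normal in `H` of prime order `r`: `|G| ≤ r ^ 3 (r - 1)`.
-/

set_option autoImplicit false
set_option linter.unusedSectionVars false

namespace Cfsg.Agent.H247.EPR

open MulAction Subgroup Cfsg.Agent.H284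

variable {G : Type*} [Group G]

theorem solv_quot_top : Group.IsSolvable (G ⧸ (⊤ : Subgroup G)) := by
  have : Subsingleton (G ⧸ (⊤ : Subgroup G)) := QuotientGroup.subsingleton_quotient_top
  infer_instance

/-- `H ∩ H^x ≠ 1` -/
theorem two_ne_bot [Finite G] [hs : IsSimpleGroup G] (hG : ¬ ∀ a b : G, a * b = b * a) {H : Subgroup G} (h : EP H)
    {x : G} (hx : x ∉ H) : H ⊓ cj x H ≠ ⊥ := by
  have hst : IsSimpleGroup (⊤ : Subgroup G) :=
    IsSimpleGroup.isSimpleGroup_of_surjective (Subgroup.topEquiv (G := G)).symm.toMonoidHom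
      (Subgroup.topEquiv (G := G)).symm.surjective
  have h1 := h.M0_ne_bot (T := ⊤) solv_quot_top hst (fun hc => hG fun a b => hc a (mem_top a) b (mem_top b)) hx
  rwa [inf_top_eq] at h1

/-- `H ∩ H^x` is maximal in `H` -/
theorem isCoatom_two [Finite G] {H : Subgroup G} (h : EP H) {x : G} (hx : x ∉ H) :
    IsCoatom ((H ⊓ cj x H).subgroupOf H) := by
  constructor
  · intro e
    rw [Subgroup.subgroupOf_eq_top] at e
    exact h.not_le_cj hx (e.trans inf_le_right)
  · intro L hL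
    have h1 : H ⊓ cj x H ≤ L.map H.subtype := by
      intro g hg
      exact ⟨⟨g, (mem_inf.1 hg).1⟩, hL.le hg, rfl⟩
    rcases h.two x hx (L.map H.subtype) h1 (by rintro _ ⟨y, _, rfl⟩; exact y.2) with h2 | h2
    · exfalso
      apply hL.ne
      apply le_antisymm hL.le
      intro y hy
      have h3 : (y : G) ∈ L.map H.subtype := ⟨y, hy, rfl⟩
      rw [h2] at h3
      exact h3
    · rw [Subgroup.eq_top_iff']
      intro y
      have h3 : (y : G) ∈ L.map H.subtype := by rw [h2]; exact y.2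
      obtain ⟨z, hz, e⟩ := h3
      have : z = y := Subtype.ext e
      rwa [← this]

/-- transport of `EP` -/
theorem ep_map {G' : Type*} [Group G'] (e : G ≃* G') {H : Subgroup G} (h : EP H) : EP (H.map (e : G →* G')) := by
  have hmem : ∀ (L : Subgroup G) (g : G'), g ∈ L.map (e : G →* G') ↔ e.symm g ∈ L := by
    intro L g
    constructor
    · rintro ⟨y, hy, rfl⟩
      simpa using hy
    · intro hg
      exact ⟨_, hg, e.apply_symm_apply g⟩
  refine ⟨?_, ?_, ?_, ?_⟩
  · exact (OrderIso.isCoatom_iff e.mapSubgroup H).2 h.max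
  · rw [Subgroup.eq_bot_iff_forall]
    intro g hg
    have h1 : e.symm g ∈ H.normalCore := by
      intro b
      have h2 := hg (e b)
      rw [hmem] at h2
      simpa using h2
    rw [h.core, mem_bot] at h1
    have h3 := congrArg e h1
    simpa using h3
  · intro e1
    apply h.ne
    rwa [Subgroup.map_eq_bot_iff_of_injective _ (show Function.Injective (e : G →* G') from e.injective)] at e1
  · intro x hx L hL1 hL2
    have hx' : e.symm x ∉ H := fun e1 => hx ((hmem H x).2 e1)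
    have hcj : ∀ g : G, e g ∈ cj x (H.map (e : G →* G')) ↔ g ∈ cj (e.symm x) H := by
      intro g
      rw [mem_cj, mem_cj, hmem]
      simp
    have hmem2 : ∀ g : G, e g ∈ H.map (e : G →* G') ↔ g ∈ H := by
      intro g
      rw [hmem]
      simp
    rcases h.two _ hx' (L.comap (e : G →* G')) (by
      intro g hg
      apply hL1
      exact ⟨(hmem2 g).2 (mem_inf.1 hg).1, (hcj g).2 (mem_inf.1 hg).2⟩) (by
      intro g hg
      exact (hmem2 g).1 (hL2 hg)) with h1 | h1
    · left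
      ext g
      have h2 : e.symm g ∈ L.comap (e : G →* G') ↔ e.symm g ∈ H ⊓ cj (e.symm x) H := by rw [h1]
      rw [Subgroup.mem_comap, mem_inf, ← hcj, ← hmem] at h2
      simpa using h2
    · right
      ext g
      have h2 : e.symm g ∈ L.comap (e : G →* G') ↔ e.symm g ∈ H := by rw [h1]
      rw [Subgroup.mem_comap, ← hmem] at h2
      simpa using h2

/-- coprime commutators -/
theorem le_of_comm [Finite G] {A H : Subgroup G} {t : G} (hab : ∀ a ∈ A, ∀ b ∈ A, a * b = b * a)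
    (ht : ∀ a ∈ A, t⁻¹ * a * t ∈ A) (hfix : ∀ a ∈ A, a * t = t * a → a = 1)
    (hH : ∀ a ∈ A, t⁻¹ * a⁻¹ * t * a ∈ H) : A ≤ H := by
  let φ : A → A := fun a => ⟨t⁻¹ * (a : G)⁻¹ * t * a, A.mul_mem (ht _ (A.inv_mem a.2)) a.2⟩
  have hφ : Function.Injective φ := by
    intro a b e
    have e1 : t⁻¹ * (a : G)⁻¹ * t * a = t⁻¹ * (b : G)⁻¹ * t * b := Subtype.ext_iff.1 e
    have h1 : (a : G) * (b : G)⁻¹ = 1 := by
      apply hfix _ (A.mul_mem a.2 (A.inv_mem b.2))
      have e2 : (a : G)⁻¹ * t * a = (b : G)⁻¹ * t * b := by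
        have := congrArg (fun x => t * x) e1
        simpa [mul_assoc] using this
      have hc := hab a a.2 b b.2
      have e3 : t * (a * (b : G)⁻¹) = a * ((a : G)⁻¹ * t * a) * (b : G)⁻¹ := by group
      rw [e3, e2]
      have e4 : (a : G) * ((b : G)⁻¹ * t * b) * (b : G)⁻¹ = a * (b : G)⁻¹ * t := by group
      rw [e4]
    exact Subtype.ext (mul_inv_eq_one.1 h1)
  intro a ha
  obtain ⟨b, hb⟩ := (Finite.injective_iff_surjective.1 hφ) ⟨a, ha⟩
  have := hH b b.2
  have e : t⁻¹ * (b : G)⁻¹ * t * b = a := Subtype.ext_iff.1 hb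
  rwa [e] at this

section prime

variable [Finite G] [hs : IsSimpleGroup G] (hG : ¬ ∀ a b : G, a * b = b * a) {H X : Subgroup G} (h : EP H)
  (hX : X ≤ H) (hXn : ∀ g ∈ H, ∀ k ∈ X, g * k * g⁻¹ ∈ X) {r : ℕ} (hr : r.Prime) (hXr : Nat.card X = r)

include hG h hX hXn hr hXr

/-- `X` normal in `H` of prime order `r`: `|G| ≤ r ^ 3 (r - 1)`. -/
theorem card_le_of_prime : Nat.card G ≤ r ^ 3 * (r - 1) := by
  classical
  have hfr := Fact.mk hr
  have hne : X ≠ ⊥ := by
    intro e
    rw [e, Subgroup.card_bot] at hXr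
    exact hr.one_lt.ne hXr
  obtain ⟨⟨a, haX⟩, hgen⟩ := (isCyclic_of_prime_card hXr).exists_generator
  have hgen' : ∀ b ∈ X, ∃ i : ℤ, a ^ i = b := by
    intro b hb
    obtain ⟨i, hi⟩ := hgen ⟨b, hb⟩
    exact ⟨i, Subtype.ext_iff.1 hi⟩
  have hab : ∀ a ∈ X, ∀ b ∈ X, a * b = b * a := by
    intro x hx y hy
    obtain ⟨i, rfl⟩ := hgen' x hx
    obtain ⟨j, rfl⟩ := hgen' y hy
    exact ((Commute.refl a).zpow_zpow i j).eq
  have hcen : ∀ c ∈ H, c * a = a * c → c ∈ X := by
    intro c hc hca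
    apply h.ab_cent hX hXn hne hab hc
    intro b hb
    obtain ⟨i, rfl⟩ := hgen' b hb
    exact ((show Commute c a from hca).zpow_right i).eq
  -- commutators of `H` are in `X`
  have hcom : ∀ x ∈ H, ∀ y ∈ H, x * y * x⁻¹ * y⁻¹ ∈ X := by
    intro x hx y hy
    obtain ⟨i, hi⟩ := hgen' _ (hXn x hx a haX)
    obtain ⟨j, hj⟩ := hgen' _ (hXn y hy a haX)
    have h1 : x * y * a * (x * y)⁻¹ = a ^ (i * j) := by
      calc x * y * a * (x * y)⁻¹ = x * (y * a * y⁻¹) * x⁻¹ := by group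
        _ = x * a ^ j * x⁻¹ := by rw [← hj]
        _ = (x * a * x⁻¹) ^ j := by rw [conj_zpow]
        _ = a ^ (i * j) := by rw [← hi, ← zpow_mul]
    have h2 : y * x * a * (y * x)⁻¹ = a ^ (i * j) := by
      calc y * x * a * (y * x)⁻¹ = y * (x * a * x⁻¹) * y⁻¹ := by group
        _ = y * a ^ i * y⁻¹ := by rw [← hi]
        _ = (y * a * y⁻¹) ^ i := by rw [conj_zpow]
        _ = a ^ (i * j) := by rw [← hj, ← zpow_mul, mul_comm]
    have hxy := H.mul_mem hx hy
    have hyx := H.mul_mem hy hx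
    have h3 : (y * x)⁻¹ * (x * y) ∈ X := by
      apply hcen _ (H.mul_mem (H.inv_mem hyx) hxy)
      have h4 : (x * y) * a = a ^ (i * j) * (x * y) := mul_inv_eq_iff_eq_mul.1 h1
      have h5 : (y * x) * a = a ^ (i * j) * (y * x) := mul_inv_eq_iff_eq_mul.1 h2
      have h6 : (y * x)⁻¹ * a ^ (i * j) = a * (y * x)⁻¹ := by
        rw [inv_mul_eq_iff_eq_mul, ← mul_assoc, h5, mul_inv_cancel_right]
      rw [mul_assoc, h4, ← mul_assoc, h6, mul_assoc]
    have h7 := hXn _ hyx _ h3
    have e : y * x * ((y * x)⁻¹ * (x * y)) * (y * x)⁻¹ = x * y * x⁻¹ * y⁻¹ := by group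
    rwa [e] at h7
  -- the subgroups `M`
  obtain ⟨x₀, hx₀⟩ := h.exists_notMem
  set c := Nat.card (H ⊓ cj x₀ H : Subgroup G) with hc
  have hcH : r * c = Nat.card H := by rw [← hXr]; exact h.ab_card hX hXn hne hab hx₀
  have hMc : ∀ M ∈ EP.twoSet H, Nat.card M = c := by
    rintro _ ⟨x, hx, rfl⟩
    have h1 := h.ab_card hX hXn hne hab hx
    rw [hXr, ← hcH] at h1
    exact Nat.eq_of_mul_eq_mul_left hr.pos h1
  have hMX : ∀ M ∈ EP.twoSet H, ∀ g ∈ M, g ∈ X → g = 1 := by
    rintro _ ⟨x, hx, rfl⟩ g hg hgX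
    have h1 : g ∈ X ⊓ cj x H := ⟨hgX, (mem_inf.1 hg).2⟩
    rwa [h.ab_inf hX hXn hne hab hx, mem_bot] at h1
  have hMH : ∀ M ∈ EP.twoSet H, M ≤ H := by
    rintro _ ⟨x, hx, rfl⟩
    exact inf_le_left
  have hMab : ∀ M ∈ EP.twoSet H, ∀ x ∈ M, ∀ y ∈ M, x * y = y * x := by
    intro M hM x hx y hy
    have h1 := hMX M hM _ (M.mul_mem (M.mul_mem (M.mul_mem hx hy) (M.inv_mem hx)) (M.inv_mem hy))
      (hcom x (hMH M hM hx) y (hMH M hM hy))
    rw [mul_inv_eq_one, mul_inv_eq_iff_eq_mul] at h1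
    exact h1
  have hc2 : 2 ≤ c := by
    have h1 := two_ne_bot hG h hx₀
    have h2 : c ≠ 1 := fun e => h1 (Subgroup.card_eq_one.1 e)
    have h3 : 0 < c := Nat.card_pos
    omega
  -- `|M| ≤ r - 1`
  have hcr : c ≤ r - 1 := by
    have h1 : c = Nat.card (H ⊓ cj x₀ H : Subgroup G) := hc
    have hM : (H ⊓ cj x₀ H : Subgroup G) ∈ EP.twoSet H := ⟨x₀, hx₀, rfl⟩
    have h2 : Nat.card {b : X // b ≠ 1} = r - 1 := by
      have := Fintype.ofFinite X
      rw [Nat.card_eq_fintype_card, Fintype.card_subtype_compl, Fintype.card_subtype_eq, ← Nat.card_eq_fintype_card,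
        hXr]
    rw [h1, ← h2]
    have ha1 : a ≠ 1 := by
      intro e
      apply hne
      rw [Subgroup.eq_bot_iff_forall]
      intro b hb
      obtain ⟨i, rfl⟩ := hgen' b hb
      rw [e, one_zpow]
    refine Nat.card_le_card_of_injective (fun m : (H ⊓ cj x₀ H : Subgroup G) =>
      (⟨⟨m * a * (m : G)⁻¹, hXn m (mem_inf.1 m.2).1 a haX⟩, fun e => ha1 (by
        have e1 : (m : G) * a * (m : G)⁻¹ = 1 := Subtype.ext_iff.1 e
        rw [mul_inv_eq_one] at e1
        exact mul_eq_left.1 e1)⟩ : {b : X // b ≠ 1})) ?_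
    intro m m' e
    have e1 : (m : G) * a * (m : G)⁻¹ = m' * a * (m' : G)⁻¹ := Subtype.ext_iff.1 (Subtype.ext_iff.1 e)
    have h3 : (m' : G)⁻¹ * m ∈ (H ⊓ cj x₀ H : Subgroup G) := mul_mem (inv_mem m'.2) m.2
    have h4 := hMX _ hM _ h3 (hcen _ (mem_inf.1 h3).1 (by
      have e2 : (m : G) * a = m' * a * (m' : G)⁻¹ * m := mul_inv_eq_iff_eq_mul.1 e1
      rw [mul_assoc, e2]
      group))
    rw [inv_mul_eq_one] at h4
    exact Subtype.ext h4.symm
  -- they intersect trivially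
  have hdis : ∀ M ∈ EP.twoSet H, ∀ M' ∈ EP.twoSet H, ∀ g ∈ M, g ∈ M' → g ≠ 1 → M = M' := by
    intro M hM M' hM' g hg hg' hg1
    let D : Subgroup G := H ⊓ Subgroup.centralizer {g}
    have hD : ∀ L ∈ EP.twoSet H, g ∈ L → L = D := by
      intro L hL hgL
      have h1 : L ≤ D := fun y hy => mem_inf.2 ⟨hMH L hL hy, Subgroup.mem_centralizer_singleton_iff.2
        (hMab L hL y hy g hgL)⟩
      refine Subgroup.eq_of_le_of_card_ge h1 ?_
      rw [hMc L hL]
      have h2 : Nat.card X * Nat.card D ≤ Nat.card H := by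
        rw [← Nat.card_prod]
        refine Nat.card_le_card_of_injective (fun p : X × D => (⟨p.1 * p.2, H.mul_mem (hX p.1.2) (mem_inf.1 p.2.2).1⟩ : H)) ?_
        rintro ⟨x, d⟩ ⟨x', d'⟩ e
        have e1 : (x : G) * d = x' * d' := Subtype.ext_iff.1 e
        have h3 : (x' : G)⁻¹ * x = d' * (d : G)⁻¹ := by
          rw [inv_mul_eq_iff_eq_mul, ← mul_assoc, eq_mul_inv_iff_mul_eq]
          exact e1
        have h4 : (x' : G)⁻¹ * x ∈ X := X.mul_mem (X.inv_mem x'.2) x.2
        have h5 : (x' : G)⁻¹ * x ∈ D := by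
          rw [h3]
          exact D.mul_mem d'.2 (D.inv_mem d.2)
        have h6 : (x' : G)⁻¹ * x = 1 := by
          by_contra hne1
          apply hg1
          -- `g` commutes with a generator of `X`
          have h7 : (x' : G)⁻¹ * x * g = g * ((x' : G)⁻¹ * x) := Subgroup.mem_centralizer_singleton_iff.1 (mem_inf.1 h5).2
          have h8 : zpowers (⟨_, h4⟩ : X) = ⊤ := by
            rcases (Subgroup.eq_bot_or_eq_top_of_prime_card (hp := by rw [hXr]; exact hfr) (zpowers (⟨_, h4⟩ : X))) with h9 | h9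
            · exfalso
              rw [zpowers_eq_bot] at h9
              exact hne1 (Subtype.ext_iff.1 h9)
            · exact h9
          apply hMX L hL g hgL
          apply hcen _ (hMH L hL hgL)
          have h9 : (⟨a, haX⟩ : X) ∈ zpowers (⟨_, h4⟩ : X) := by rw [h8]; exact mem_top _
          obtain ⟨i, hi⟩ := h9
          have h10 : ((x' : G)⁻¹ * x) ^ i = a := Subtype.ext_iff.1 hi
          rw [← h10]
          exact ((show Commute g ((x' : G)⁻¹ * x) from h7.symm).zpow_right i).eq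
        have h7 : (d' : G) * (d : G)⁻¹ = 1 := h3 ▸ h6
        rw [inv_mul_eq_one] at h6
        rw [mul_inv_eq_one] at h7
        exact Prod.ext (Subtype.ext h6.symm) (Subtype.ext h7.symm)
      rw [hXr, ← hcH] at h2
      exact Nat.le_of_mul_le_mul_left h2 hr.pos
    rw [hD M hM hg, hD M' hM' hg']
  -- counting
  have hfin : (EP.twoSet H).Finite := Set.toFinite _
  have hfty : Fintype (EP.twoSet H) := hfin.fintype
  have hN : (EP.twoSet H).ncard ≤ r := by
    have h1 : Nat.card (Σ M : EP.twoSet H, {m : M.1 // m ≠ 1}) ≤ Nat.card {g : H // (g : G) ∉ X} := by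
      refine Nat.card_le_card_of_injective (fun p => ⟨⟨p.2.1, hMH p.1.1 p.1.2 p.2.1.2⟩, fun hX' =>
        p.2.2 (Subtype.ext (hMX p.1.1 p.1.2 _ p.2.1.2 hX'))⟩) ?_
      rintro ⟨⟨M, hM⟩, ⟨⟨m, hm⟩, hm1⟩⟩ ⟨⟨M', hM'⟩, ⟨⟨m', hm'⟩, hm1'⟩⟩ e
      have e1 : m = m' := Subtype.ext_iff.1 (Subtype.ext_iff.1 e)
      subst e1
      have e2 : M = M' := hdis M hM M' hM' m hm hm' (fun e => hm1 (Subtype.ext e))
      subst e2
      rfl
    have h2 : Nat.card (Σ M : EP.twoSet H, {m : M.1 // m ≠ 1}) = (EP.twoSet H).ncard * (c - 1) := by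
      rw [Nat.card_sigma]
      rw [Finset.sum_congr rfl (g := fun _ => c - 1)]
      · rw [Finset.sum_const, smul_eq_mul, Finset.card_univ, ← Nat.card_eq_fintype_card, Nat.card_coe_set_eq]
      · rintro ⟨M, hM⟩ _
        have := Fintype.ofFinite M
        rw [Nat.card_eq_fintype_card, Fintype.card_subtype_compl, Fintype.card_subtype_eq,
          ← Nat.card_eq_fintype_card, hMc M hM]
    have h3 : Nat.card {g : H // (g : G) ∉ X} = r * c - r := by
      have h4 : Nat.card {g : H // (g : G) ∈ X} = r := by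
        rw [← hXr]
        exact Nat.card_congr ((Subgroup.subgroupOfEquivOfLe hX).toEquiv)
      have := Fintype.ofFinite H
      have h5 := Fintype.card_subtype_compl (fun g : H => (g : G) ∈ X)
      rw [Nat.card_eq_fintype_card, h5, ← Nat.card_eq_fintype_card, ← Nat.card_eq_fintype_card, h4, hcH]
    rw [h2, h3] at h1
    have h4 : r * c - r = r * (c - 1) := by rw [Nat.mul_sub, mul_one]
    rw [h4] at h1
    exact Nat.le_of_mul_le_mul_right h1 (by omega)
  have hidx := h.index_le_sq (fun x hx => two_ne_bot hG h hx)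
  calc Nat.card G = Nat.card H * H.index := (Subgroup.card_mul_index H).symm
    _ ≤ (r * (r - 1)) * r ^ 2 := by
      apply Nat.mul_le_mul
      · rw [← hcH]
        exact Nat.mul_le_mul_left _ hcr
      · exact hidx.trans (Nat.pow_le_pow_left hN 2)
    _ = r ^ 3 * (r - 1) := by ring

end prime

end Cfsg.Agent.H247.EPR
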